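import Cfsg.Agent.Lib.SSFT.Tools2
import Cfsg.Agent.Lib.BG.Sec3a
import Cfsg.Agent.Lib.BG.AmbRank

/-!
Coprime elementary abelian operator groups with a unique invariant Sylow `p`-subgroup for each `p`.
-/

set_option autoImplicit false
set_option linter.unusedSectionVars false

namespace CfsgLib.Mart

open Cfsg Subgroup CfsgLib.BG CfsgLib.SSFT

universe u

variable {Γ : Type u} [Group Γ]

/-- An `A`-invariant subgroup of `G`. -/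
structure Iv (A G X : Subgroup Γ) : Prop where
  le : X ≤ G
  nm : A ≤ 𝒩(X)

/-- An `A`-invariant `π`-subgroup of `G`. -/
structure Ip (A G : Subgroup Γ) (π : Set ℕ) (X : Subgroup Γ) : Prop extends Iv A G X where
  pg : IsPiSubgroup π X

/-- The hypothesis of the theorem. -/
structure UH (r : ℕ) (A G : Subgroup Γ) : Prop where
  prime : r.Prime
  ne2 : r ≠ 2
  elem : IsElementaryAbelian r A
  nm : A ≤ 𝒩(G)
  cop : IsPiSubgroup {r}ᶜ G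
  un : ∀ p : ℕ, p.Prime → ∀ X Y, Ip A G {p} X → Ip A G {p} Y → IsPiSubgroup {p} (X ⊔ Y)
  odd : Odd (Nat.card ↥(G ⊓ 𝒞(A)))

/-- The invariant Sylow subgroup. -/
def syl (A G : Subgroup Γ) (p : ℕ) : Subgroup Γ := sSup {X | Ip A G {p} X}

/-- `[C_K(B), A]` -/
def cb (A B K : Subgroup Γ) : Subgroup Γ := ⁅K ⊓ 𝒞(B), A⁆

/-- `p` is of type II. -/
def TII (A N : Subgroup Γ) (p : ℕ) : Prop :=
  ∀ (q : ℕ) (Y W : Subgroup Γ), q ≠ p → Ip A N {q} Y → Ip A N {p} W → Y ≤ 𝒩(W) → ⁅Y, A⁆ ≤ 𝒞(W)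

variable {r p q : ℕ} {A G H K L N X Y W E B B₁ : Subgroup Γ} {π : Set ℕ}

theorem Iv.inf (h1 : Iv A G X) (h2 : A ≤ 𝒩(Y)) : Iv A G (X ⊓ Y) :=
  ⟨inf_le_left.trans h1.le, normsI h1.nm h2⟩

theorem Iv.sup (h1 : Iv A G X) (h2 : Iv A G Y) : Iv A G (X ⊔ Y) :=
  ⟨sup_le h1.le h2.le, normsY h1.nm h2.nm⟩

theorem Iv.comm (h1 : Iv A G X) (h2 : Iv A G Y) : Iv A G ⁅X, Y⁆ :=
  ⟨commg_sub h1.le h2.le, normsR h1.nm h2.nm⟩

theorem Iv.sub (h1 : Iv A G X) (h2 : Y ≤ X) (h3 : A ≤ 𝒩(Y)) : Iv A G Y := ⟨h2.trans h1.le, h3⟩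

theorem Iv.commA_le (h1 : Iv A G X) (hB : B ≤ A) : ⁅X, B⁆ ≤ X := commg_subl.2 (hB.trans h1.nm)

theorem Iv.pcore (h1 : Iv A G X) (π : Set ℕ) : Iv A G (piCoreOf π X) :=
  h1.sub (pcore_sub _ _) (norms_pcore _ h1.nm)

theorem Iv.ip (h1 : Iv A G X) (h2 : IsPiSubgroup π X) : Ip A G π X := ⟨h1, h2⟩

theorem Ip.sub (h1 : Ip A G π X) (h2 : Y ≤ X) (h3 : A ≤ 𝒩(Y)) : Ip A G π Y :=
  ⟨h1.toIv.sub h2 h3, pigroupS h2 h1.pg⟩

theorem Ip.inf (h1 : Ip A G π X) (h2 : A ≤ 𝒩(Y)) : Ip A G π (X ⊓ Y) :=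
  h1.sub inf_le_left (normsI h1.nm h2)

theorem Ip.inf' (h1 : Ip A G π X) (h2 : A ≤ 𝒩(Y)) : Ip A G π (Y ⊓ X) :=
  h1.sub inf_le_right (normsI h2 h1.nm)

theorem Ip.of_le (h1 : Ip A G π X) (h2 : X ≤ H) : Ip A H π X := ⟨⟨h2, h1.nm⟩, h1.pg⟩

theorem Ip.mono {ρ : Set ℕ} (h1 : Ip A G π X) (h2 : π ⊆ ρ) : Ip A G ρ X :=
  ⟨h1.toIv, sub_pigroup' h1.pg h2⟩

theorem Ip.center (h1 : Ip A G π X) : Ip A G π (centerOf X) :=
  h1.sub (centerOf_le _) (norms_centerOf h1.nm)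

theorem Ip.le_syl (h1 : Ip A G {p} X) : X ≤ syl A G p := le_sSup h1

theorem TII.mono (h : TII A G p) (hN : N ≤ G) : TII A N p := fun q Y W h1 h2 h3 =>
  h q Y W h1 (h2.of_le (h2.le.trans hN)) (h3.of_le (h3.le.trans hN))

theorem cb_mono (h : K ≤ L) : cb A B K ≤ cb A B L := commSg _ (inf_le_inf_right _ h)

theorem norms_cb (hB : B ≤ A) (h1 : X ≤ 𝒩(K)) (h2 : X ≤ 𝒞(A)) : X ≤ 𝒩(cb A B K) :=
  normsR (normsI h1 (norms_cent (cents_norm (centsS hB h2)))) (cents_norm h2)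

variable [Finite Γ]

theorem Iv.ipcore (h1 : Iv A G X) (π : Set ℕ) : Ip A G π (piCoreOf π X) :=
  ⟨h1.pcore π, pcore_pgroup _ _⟩

theorem pgp_TI (hX : IsPiSubgroup {p} X) (hY : IsPiSubgroup {q} Y) (h : p ≠ q) : X ⊓ Y = ⊥ :=
  coprime_TIg (pgp_coprime_of_ne hX hY h)

theorem pgp_bot (hX : IsPiSubgroup {p} X) (hY : IsPiSubgroup {q} Y) (h : p ≠ q) (h1 : K ≤ X)
    (h2 : K ≤ Y) : K = ⊥ := le_bot_iff.1 ((le_inf h1 h2).trans (pgp_TI hX hY h).le)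

theorem CEN (hr : r.Prime) (hr2 : r ≠ 2) (hpq : p ≠ q) (hW : IsPiSubgroup {p} W)
    (hY : IsPiSubgroup {q} Y) (hB : Nat.card B = r) (hBW : B ≤ 𝒩(W)) (hBY : B ≤ 𝒩(Y))
    (hYW : Y ≤ 𝒩(W)) (c1 : (Nat.card W).Coprime (Nat.card B))
    (c2 : (Nat.card Y).Coprime (Nat.card B)) (hc : W ⊓ 𝒞(B) ≤ 𝒞(Y))
    (h2 : q = 2 → Y ⊓ 𝒞(B) = ⊥) : ⁅Y, B⁆ ≤ 𝒞(W) := by
  by_cases hW1 : W = ⊥
  · rw [hW1, cent_bot]; exact le_top
  have hp := (pgp_pdiv hW hW1).1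
  have c3 := pgp_coprime_of_ne hW hY hpq
  have l1 : ⁅Y, B⁆ ≤ Y := commg_subl.2 hBY
  have l2 : ⁅W, Y⁆ ≤ W := commg_subl.2 hYW
  suffices h : ⁅Y, B⁆ ≤ 𝒞(⁅W, Y⁆) from coprime_commGG1P (l1.trans hYW) (coprimegS l1 c3)
    (le_bot_iff.1 ((commSg _ (commgS _ l1)).trans (commG1'.2 h).le))
  have hid := coprime_commGid hYW c3
  have hBV := normsR hBW hBY
  have hYV := commg_normr W Y
  have hV := pigroupS l2 hW
  replace c1 := coprimeSg l2 c1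
  replace c3 := coprimeSg l2 c3
  replace hc := (inf_le_inf_right _ l2).trans hc
  generalize ⁅W, Y⁆ = V at *
  have hBp : (Nat.card B).Prime := hB ▸ hr
  by_cases hV1 : V = ⊥
  · rw [hV1, cent_bot]; exact le_top
  by_cases hq : q = 2
  · exact l1.trans (cents_symm (FR hp hV hYV hBV hBY (prime_semiregular hBp (h2 hq)) c3 c1 hid.ge hc
      (norms_cent (normG Y))))
  have n1 := (Phi_char V).normal.norm
  have n2 := (Phi_char V).norms hYV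
  have n3 := (Phi_char V).norms hBV
  have hab := Phi_quotient_abelem hp hV
  refine coprime_cent_Phi hp hV (coprimegS l1 c3) ?_
  rw [commGC, ← quo_cent_iff (l1.trans n2) n1]
  refine (mim_commutator _ n2 n3).trans_le ((commGC _ _).trans_le ?_)
  refine (odd_prime_sdprod_abelem_cent1 (M := (Y ⊔ B) ⧸⧸ frattiniOf V) hp
    (mim_isSolvable _ (solvableY (Or.inr hBY) (pgp_sol hY) (abelian_sol (prime_abelian hBp))))
    (odd_card_mim _ ?_) (mim_SDProd_of_coprime _ (sup_le n2 n3) (sdprodY hBY (coprime_TIg c2)) c2)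
    (coprime_mim _ c2) ?_ hab (mim_norm _ (sup_le hYV hBV))
    (quo_pigroup _ (pigroupY (Or.inr hBY) (pgp_p'group hY hpq.symm) ?_)) ?_).trans inf_le_right
  · rw [TI_cardMg (Or.inr hBY) (coprime_TIg c2), hB]
    refine Odd.mul (Nat.not_even_iff_odd.1 fun e => hq ?_) (hr.odd_of_ne_two hr2)
    exact (pgp_prime_eq hY Nat.prime_two e.two_dvd).symm
  · rwa [card_quo_of_disjoint n3 (coprime_TIg (coprimeSg (Phi_char V).normal.le c1).symm)]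
  · exact (p'group_iff_coprime hp).2 (S1.coprime_p_of_coprime hV hV1 c1)
  · rw [← coprime_quo_cent n1 n3 hBV (coprimeSg inf_le_left c1)
      (Or.inl (abelian_sol (prime_abelian hBp))), eq_bot_iff,
      ← coprime_abel_cent_TI (mim_norm (cosHom _) hYV) (coprime_mim _ c3) hab.1,
      ← mim_commutator _ n1 n2, hid]
    exact le_inf (mim_mono _ inf_le_left) (mim_cent _ hc)

namespace UH

variable (h : UH r A G)
include h

theorem iv : Iv A G G := ⟨le_rfl, h.nm⟩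

theorem nA (hB : B ≤ A) : A ≤ 𝒩(B) := sub_abelian_norm h.elem.1 hB

theorem nC (hB : B ≤ A) : A ≤ 𝒩(𝒞(B)) := norms_cent (h.nA hB)

theorem solA : Group.IsSolvable A := abelian_sol h.elem.1

theorem co (hX : X ≤ G) (hB : B ≤ A) : (Nat.card X).Coprime (Nat.card B) :=
  pigroup_coprime' (pigroupS hX h.cop) (pigroupS hB (abelem_pgroup h.prime h.elem))

theorem two_bot (hX : IsPiSubgroup {2} X) (h1 : X ≤ G) (h2 : X ≤ 𝒞(A)) : X = ⊥ :=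
  pigroup_eq_bot hX ((p'group_iff Nat.prime_two).2 fun e =>
    Nat.not_even_iff_odd.2 (oddSg (le_inf h1 h2) h.odd) (even_iff_two_dvd.2 e))

theorem syl_eq (hp : p.Prime) (hX : IsSylowOf p X G) (hA : A ≤ 𝒩(X)) : syl A G p = X :=
  have h1 : Ip A G {p} X := ⟨⟨pHall_sub hX, hA⟩, pHall_pgroup hX⟩
  le_antisymm (sSup_le fun Y hY => le_sup_right.trans
    (sub_pHall hX (h.un p hp X Y h1 hY) le_sup_left (sup_le h1.le hY.le)).le) h1.le_syl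

theorem ip_syl (hp : p.Prime) : Ip A G {p} (syl A G p) := by
  obtain ⟨X, hX, hA⟩ := coprime_Sylow_exists hp h.nm (h.co le_rfl le_rfl) (Or.inl h.solA)
  rw [h.syl_eq hp hX hA]
  exact ⟨⟨pHall_sub hX, hA⟩, pHall_pgroup hX⟩

theorem sylow (hp : p.Prime) (hH : Iv A G H) : IsSylowOf p (H ⊓ syl A G p) H := by
  obtain ⟨X, hX, hA⟩ := coprime_Sylow_exists hp hH.nm (h.co hH.le le_rfl) (Or.inl h.solA)
  rwa [sub_pHall hX (pigroupS inf_le_right (h.ip_syl hp).pg) (le_inf (pHall_sub hX)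
    (Ip.le_syl ⟨⟨(pHall_sub hX).trans hH.le, hA⟩, pHall_pgroup hX⟩)) inf_le_left]

theorem sylow_top (hp : p.Prime) : IsSylowOf p (syl A G p) G := by
  have := h.sylow hp h.iv
  rwa [inf_eq_right.2 (h.ip_syl hp).le] at this

theorem le_of_syl (hH : Iv A G H) (h1 : ∀ p : ℕ, p.Prime → p ∣ Nat.card H → H ⊓ syl A G p ≤ K) :
    H ≤ K := le_of_forall_Sylow fun p hp hd => ⟨_, h.sylow hp hH, h1 p hp hd⟩

theorem cnorm (hp : p.Prime) (h1 : X ≤ G) (h2 : X ≤ 𝒞(A)) : X ≤ 𝒩(syl A G p) :=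
  le_norm_of_cj_le fun c hc => Ip.le_syl ⟨⟨cj_le_of_mem (h1 hc) (h.ip_syl hp).le, by
    rw [← cj_norm, ← cj_eq_of_mem_cent (h2 hc)]
    exact cj_mono _ (by rw [cj_eq_of_mem_cent (h2 hc)]; exact (h.ip_syl hp).nm)⟩, by
    rw [pigroup_singleton hp, isPGroup_cj, ← pigroup_singleton hp]
    exact (h.ip_syl hp).pg⟩

theorem F2 (hpq : p ≠ q) (hX : Ip A G {p} X) (hY : Ip A G {q} Y) (hn : Y ≤ 𝒩(X)) :
    X ⊓ 𝒞(A) ≤ 𝒞(Y) := by
  by_cases hY1 : Y = ⊥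
  · rw [hY1, cent_bot]; exact le_top
  have hq := (pgp_pdiv hY.pg hY1).1
  exact commG1.1 (pgp_bot hX.pg (h.ip_syl hq).pg hpq
    ((commSg _ inf_le_left).trans (commg_subl.2 hn)) ((commgS _ hY.le_syl).trans
      (commg_subr.2 (h.cnorm hq (inf_le_left.trans hX.le) inf_le_right))))

theorem sub (hH : Iv A G H) : UH r A H :=
  ⟨h.prime, h.ne2, h.elem, hH.nm, pigroupS hH.le h.cop, fun p hp X Y hX hY =>
    h.un p hp X Y (hX.of_le (hX.le.trans hH.le)) (hY.of_le (hY.le.trans hH.le)),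
    oddSg (inf_le_inf_right _ hH.le) h.odd⟩

theorem mim {Γ' : Type u} [Group Γ'] [Finite Γ'] {D : Subgroup Γ} (f : D →* Γ') (hG : G ≤ D)
    (hA : A ≤ D) : UH r (mim f A) (mim f G) := by
  have key : ∀ p : ℕ, p.Prime → ∀ X, Ip (BG.mim f A) (BG.mim f G) {p} X →
      X ≤ BG.mim f (syl A G p) := fun p hp X hX => by
    have := mim_pHall f (inf_le_left.trans hG)
      (h.sylow hp (h.iv.inf (norm_mpre_of_mim_norm f hA hX.nm)))
    rw [mim_inf_mpre, inf_eq_right.2 hX.le] at this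
    exact (pHall_id this hX.pg).ge.trans (mim_mono _ inf_le_right)
  refine ⟨h.prime, h.ne2, mim_abelem _ h.elem, mim_norm _ h.nm, mim_pigroup _ h.cop,
    fun p hp X Y hX hY => pigroupS (sup_le (key p hp X hX) (key p hp Y hY))
      (mim_pigroup _ (h.ip_syl hp).pg), ?_⟩
  rw [← coprime_mim_cent f hG hA h.nm (h.co inf_le_left le_rfl) (Or.inl h.solA)]
  exact odd_card_mim _ h.odd

theorem cb_le (hB : B ≤ A) (hK : A ≤ 𝒩(K)) : cb A B K ≤ K ⊓ 𝒞(B) :=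
  commg_subl.2 (normsI hK (h.nC hB))

theorem cb_le_left (hB : B ≤ A) (hK : A ≤ 𝒩(K)) : cb A B K ≤ K :=
  (h.cb_le hB hK).trans inf_le_left

theorem cb_le_right (hB : B ≤ A) (hK : A ≤ 𝒩(K)) : cb A B K ≤ 𝒞(B) :=
  (h.cb_le hB hK).trans inf_le_right

theorem ip_cb (hB : B ≤ A) (hK : Ip A G π K) : Ip A G π (cb A B K) :=
  hK.sub (h.cb_le_left hB hK.nm) (commg_normr _ _)

theorem cb_id (hB : B ≤ A) (hK : Iv A G K) : ⁅cb A B K, A⁆ = cb A B K :=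
  coprime_commGid (normsI hK.nm (h.nC hB)) (h.co (inf_le_left.trans hK.le) le_rfl)

theorem cb_sup (hB : B ≤ A) (hK : Ip A G {p} K) : K ⊓ 𝒞(B) ≤ cb A B K ⊔ (K ⊓ 𝒞(A)) :=
  (coprime_cent_prod (normsI hK.nm (h.nC hB)) (h.co (inf_le_left.trans hK.le) le_rfl)
    (solvableS inf_le_left (pgp_sol hK.pg))).ge.trans
    (sup_le_sup_left (inf_le_inf_right _ inf_le_left) _)

theorem cb_eq_bot (hB : B ≤ A) (hK : Iv A G K) (h1 : cb A B K ≤ 𝒞(A)) : cb A B K = ⊥ := by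
  rw [← h.cb_id hB hK, commG1.2 h1]

theorem CE (hpq : p ≠ q) (hY : Ip A G {q} Y) (hW : Ip A G {p} W) (hB : PnElem r 1 A B)
    (hB₁ : B₁ ≤ A) (hA : A ≤ B ⊔ B₁) (h1 : Y ≤ 𝒞(B₁)) (hYW : Y ≤ 𝒩(W))
    (hc : W ⊓ 𝒞(B) ≤ 𝒞(Y)) : ⁅Y, A⁆ ≤ 𝒞(W) := by
  refine (commgS _ hA).trans ?_
  rw [commGC, commg_sup_cent (cents_symm h1) (hB₁.trans (h.nA hB.le)), commGC]
  exact CEN h.prime h.ne2 hpq hW.pg hY.pg hB.card1 (hB.le.trans hW.nm) (hB.le.trans hY.nm) hYW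
    (h.co hW.le hB.le) (h.co hY.le hB.le) hc fun e => h.two_bot (pigroupS inf_le_left (e ▸ hY.pg))
      (inf_le_left.trans hY.le) (centsS hA (centsY inf_le_right (inf_le_left.trans h1)))

theorem tii_of_cent (hB : PnElem r 1 A B) (hB₁ : B₁ ≤ A) (hA : A ≤ B ⊔ B₁) (h1 : G ≤ 𝒞(B₁))
    (p : ℕ) : TII A G p := fun _ _ _ hq hY hW hn =>
  h.CE hq.symm hY hW hB hB₁ hA (hY.le.trans h1) hn ((le_inf inf_le_left (centsS hA
    (centsY inf_le_right (inf_le_left.trans (hW.le.trans h1))))).trans (h.F2 hq.symm hW hY hn))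

theorem T2 (hs : Group.IsSolvable G) (hp : p.Prime) (h2 : TII A G p) (hq : q ≠ p)
    (hY : Ip A G {q} Y) : ⁅Y, A⁆ ≤ oppOf p G := by
  by_cases hY1 : Y = ⊥
  · rw [hY1, commG1.2 bot_le]; exact bot_le
  have hq' := (pgp_pdiv hY.pg hY1).1
  have i1 : Iv A G (opP p G) := ⟨(opP_normal p G).le, (opP_char p G).norms h.nm⟩
  have s1 := h.sylow hp i1
  have i2 := (h.ip_syl hp).inf' i1.nm
  generalize opP p G ⊓ syl A G p = R at s1 i2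
  have i3 := h.iv.inf (norms_norm i2.nm)
  have s2 := h.sylow hq' i3
  have i4 := (h.ip_syl hq').inf' i3.nm
  have l1 := pHall_sub s2
  generalize G ⊓ 𝒩(R) ⊓ syl A G q = Z at s2 i4 l1
  have l2 := i4.commA_le le_rfl
  have l3 : ⁅Z, A⁆ ≤ oppOf p G := le_oppOf_of_le_opP hp ((le_inf (l2.trans i4.le)
    (h2 q Z R hq i4 i2 (l1.trans inf_le_right))).trans (solvable_p_constrained hp hs s1))
    (pigroupS l2 (pgp_p'group i4.pg hq))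
  have e := Frattini_arg hp (opP_normal p G) s1
  rw [← opP_eq_sup_Sylow hp s1, sup_assoc, sup_eq_right.2 (le_inf i2.le (normG R))] at e
  have n1 := pcore_norm {p}ᶜ G
  have n2 := norms_pcore {p}ᶜ h.nm
  have s3 := quo_pHall (inf_le_left.trans n1) s2
  rw [← quo_sup_left (inf_le_left.trans n1), e] at s3
  rw [← quo_cent_iff (hY.le.trans n1) n2]
  refine le_trans ?_ ((quo_cent_iff (i4.le.trans n1) n2).2 l3)
  rw [← (h.mim (cosHom _) n1 n2).syl_eq hq' s3 (mim_norm _ i4.nm)]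
  exact Ip.le_syl ⟨⟨mim_mono _ hY.le, mim_norm _ hY.nm⟩, mim_pigroup _ hY.pg⟩

theorem N1 (hpq : p ≠ q) (hX : Ip A G {p} X) (hE : Ip A G {q} E) (hn : X ≤ 𝒩(E)) :
    ⁅E, X⁆ ≤ ⁅E, A⁆ := by
  by_cases hE1 : E = ⊥
  · rw [hE1, commG1.2 bot_le]; exact bot_le
  have l1 : ⁅E, X⁆ ≤ E := commg_subl.2 hn
  have i1 := hE.sub l1 (normsR hE.nm hX.nm)
  refine (nil_gen' (pgp_pdiv hE.pg hE1).1 i1.pg (i1.commA_le le_rfl) ?_).trans (commSg _ l1)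
  refine (coprime_cent_prod i1.nm (h.co i1.le le_rfl) (pgp_sol i1.pg)).ge.trans
    (sup_le_sup_left (le_trans ?_ (coprime_cent_commg_sub_der1 hn
      (pgp_coprime_of_ne hE.pg hX.pg hpq.symm))) _)
  exact le_inf inf_le_left (h.F2 hpq.symm i1 hX (commg_normr _ _))

end UH

/-- The case of rank two. -/
structure R2 (r : ℕ) (A G : Subgroup Γ) : Prop extends UH r A G where
  rank : PnElem r 2 ⊤ A

namespace R2

variable (h : R2 r A G)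
include h

theorem sub (hH : Iv A G H) : R2 r A H := ⟨h.toUH.sub hH, h.rank⟩

theorem sup_eq (hB : PnElem r 1 A B) (hB₁ : PnElem r 1 A B₁) (hne : B ≠ B₁) : A ≤ B ⊔ B₁ :=
  (p2Elem_sup_eq h.prime h.rank hB hB₁ hne).ge

theorem cA (hB : PnElem r 1 A B) (hB₁ : PnElem r 1 A B₁) (hne : B ≠ B₁) (h1 : X ≤ 𝒞(B))
    (h2 : X ≤ 𝒞(B₁)) : X ≤ 𝒞(A) := centsS (h.sup_eq hB hB₁ hne) (centsY h1 h2)

theorem third (hB : PnElem r 1 A B) (hB₁ : PnElem r 1 A B₁) :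
    ∃ B₂, PnElem r 1 A B₂ ∧ B₂ ≠ B ∧ B₂ ≠ B₁ := by
  have key : ∀ {B}, PnElem r 1 A B → ∃ x ∈ A, x ∉ B := fun hB =>
    SetLike.not_le_iff_exists.1 (hB.lt_of_le h.prime h.rank hB.le one_lt_two).not_ge
  obtain ⟨a, ha, h1, h2⟩ : ∃ a ∈ A, a ∉ B ∧ a ∉ B₁ := by
    obtain ⟨x, hx, x1⟩ := key hB
    obtain ⟨y, hy, y1⟩ := key hB₁
    by_cases x2 : x ∈ B₁
    · by_cases y2 : y ∈ B
      · exact ⟨x * y, mul_mem hx hy, fun e => x1 ((mul_mem_cancel_right y2).1 e),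
          fun e => y1 ((mul_mem_cancel_left x2).1 e)⟩
      · exact ⟨y, hy, y2, y1⟩
    · exact ⟨x, hx, x1, x2⟩
  exact ⟨_, pnElem1_zpowers_abelem h.prime h.elem ha fun e => h1 (e ▸ one_mem _),
    fun e => h1 (e ▸ mem_zpowers a), fun e => h2 (e ▸ mem_zpowers a)⟩

theorem F1 (hB : PnElem r 1 A B) (hs : Group.IsSolvable ↥(G ⊓ 𝒞(B))) (hX : Ip A G {p} X) :
    cb A B X ≤ opOf p (G ⊓ 𝒞(B)) := by
  obtain ⟨B₁, hB₁, hne, -⟩ := h.third hB hB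
  have i1 := h.iv.inf (h.nC hB.le)
  have h' := h.toUH.sub i1
  have i2 := (hX.inf (h.nC hB.le)).of_le (inf_le_inf_right _ hX.le)
  refine le_trans (le_inf (i2.commA_le le_rfl |>.trans i2.le) (le_iInf fun q => h'.T2 hs q.2.1
    (h'.tii_of_cent hB₁ hB.le (h.sup_eq hB₁ hB hne) inf_le_right _) q.2.2 i2))
    (pcore_max (N := G ⊓ 𝒞(B) ⊓ ⨅ q : {q : ℕ // q.Prime ∧ p ≠ q}, oppOf q (G ⊓ 𝒞(B)))
      (normalIn_inf_of_norm (norms_iInf fun q => pcore_norm _ _)) fun s hs hd => ?_)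
  by_contra hc
  exact pcore_pgroup {s}ᶜ _ s hs (hd.trans (cardSg (inf_le_right.trans
    (iInf_le_of_le ⟨s, hs, fun e => hc e.symm⟩ le_rfl)))) rfl

theorem F1c (hB : PnElem r 1 A B) (hs : Group.IsSolvable ↥(G ⊓ 𝒞(B))) (hpq : p ≠ q)
    (hX : Ip A G {p} X) (hY : Ip A G {q} Y) : cb A B X ≤ 𝒞(cb A B Y) :=
  centSS ((h.F1 hB hs hX).trans (opOf_le_oppOf hpq _)) (h.F1 hB hs hY) (oppOf_cent_opOf _ _)

theorem CE2 (hpq : p ≠ q) (hK : Ip A G {q} K) (hW : Ip A G {p} W) (hB : PnElem r 1 A B)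
    (hB₁ : PnElem r 1 A B₁) (hne : B ≠ B₁) (hn : cb A B₁ K ≤ 𝒩(W))
    (hc : W ⊓ 𝒞(B) ≤ 𝒞(cb A B₁ K)) : cb A B₁ K ≤ 𝒞(W) :=
  (h.cb_id hB₁.le hK.toIv).ge.trans (h.CE hpq (h.ip_cb hB₁.le hK) hW hB hB₁.le
    (h.sup_eq hB hB₁ hne) (h.cb_le_right hB₁.le hK.nm) hn hc)

theorem GN1 (hK : Iv A G K) (h1 : ∀ B, PnElem r 1 A B → K ⊓ 𝒞(B) ≤ L) : K ≤ L :=
  coprime_abelian_gen_cent1_le h.elem.1 (h.rank.not_cyclic2 h.prime) hK.nm (h.co hK.le le_rfl)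
    fun a ha a1 => cent_zpowers a ▸ h1 _ (pnElem1_zpowers_abelem h.prime h.elem ha a1)

theorem GN2 (hK : Ip A G {p} K) (h1 : ∀ B, PnElem r 1 A B → cb A B K ≤ L) (h2 : K ⊓ 𝒞(A) ≤ L) :
    K ≤ L := h.GN1 hK.toIv fun B hB => (h.cb_sup hB.le hK).trans (sup_le (h1 B hB) h2)

theorem GN4 (hK : Ip A G {p} K) (hL : K ≤ 𝒩(L)) (hA : A ≤ 𝒩(L)) (hB₁ : B₁ ≤ A)
    (h1 : ∀ B, PnElem r 1 A B → B ≠ B₁ → cb A B K ≤ L) : ⁅K, B₁⁆ ≤ L := by
  have : K ≤ (K ⊓ L) ⊔ (K ⊓ 𝒞(B₁)) := h.GN2 hK (fun B hB => by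
    by_cases e : B = B₁
    · exact (h.cb_le hB.le hK.nm).trans (e ▸ le_sup_right)
    · exact (le_inf (h.cb_le_left hB.le hK.nm) (h1 B hB e)).trans le_sup_left)
    ((inf_le_inf_left _ (centS hB₁)).trans le_sup_right)
  refine (commSg _ this).trans ?_
  rw [commg_sup_cent inf_le_right (inf_le_left.trans (normsGI le_rfl hL))]
  exact (commg_subl.2 (hB₁.trans (normsI hK.nm hA))).trans inf_le_right

end R2

end CfsgLib.Mart
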