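import Cfsg.Agent.Lib.Mart.Basic

/-!
A Fitting height lemma: an invariant tower `R`, `E`, `X` collapses.
-/

set_option autoImplicit false
set_option linter.unusedSectionVars false

namespace CfsgLib.Mart

open Cfsg Subgroup CfsgLib.BG CfsgLib.SSFT
open scoped commutatorElement

universe u

variable {Γ : Type u} [Group Γ] [Finite Γ]
variable {r p q : ℕ} {A G K R V X E B B₁ : Subgroup Γ}

namespace R2

variable (h : R2 r A G)
include h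

theorem cb_id' (hB : PnElem r 1 A B) (hB₁ : PnElem r 1 A B₁) (hne : B ≠ B₁) (hK : Iv A G K) :
    cb A B₁ K ≤ ⁅cb A B₁ K, B⁆ := by
  refine (h.cb_id hB₁.le hK).ge.trans ((commgS _ (h.sup_eq hB hB₁ hne)).trans ?_)
  rw [commGC, commg_sup_cent (cents_symm (h.cb_le_right hB₁.le hK.nm))
    (hB₁.le.trans (h.nA hB.le)), commGC]

theorem HT1 (hs : Group.IsSolvable G) (hpq : p ≠ q) (hV : Ip A G {p} V) (hK : Ip A G {q} K)
    (hab : IsMulCommutative V) (hKV : K ≤ 𝒩(V)) (hf : K ⊓ 𝒞(V) = ⊥) (hKab : IsMulCommutative K)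
    (hKA : K ⊓ 𝒞(A) = ⊥) {k : Γ} (hk : k ∈ K) (k1 : k ≠ 1)
    (hmax : ∀ a ∈ K, a ≠ 1 → Nat.card ↥(V ⊓ 𝒞[a]) ≤ Nat.card ↥(V ⊓ 𝒞[k])) :
    ∃ B, PnElem r 1 A B ∧ k ∈ cb A B K := by
  have c1 := pgp_coprime_of_ne hV.pg hK.pg hpq
  have l1 := fun {B} (hB : PnElem r 1 A B) => h.cb_le_left hB.le hK.nm
  have hz := zpowers_le.2 hk
  have VB : ∀ {B}, PnElem r 1 A B → V ⊓ 𝒞(B) ≤ 𝒞(cb A B K) := fun hB =>
    (h.cb_sup hB.le hV).trans (sup_le (h.F1c hB (solvableS inf_le_left hs) hpq hV hK)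
      (centsS (l1 hB) (h.F2 hpq hV hK hKV)))
  obtain ⟨B, hB, hkB⟩ : ∃ B, PnElem r 1 A B ∧ ¬ zpowers k ≤ 𝒞(⁅V, cb A B K⁆) := by
    by_contra hc
    push Not at hc
    have : K ≤ 𝒞(⁅V, zpowers k⁆) := h.GN2 hK (fun B hB => commG1'.1 (three_subgroup
      (by rw [commG1.2 (sub_abelian_cent2 hKab hz (l1 hB)), commG1.2 bot_le])
      (by rw [commGC _ V]; exact commG1'.2 (hc B hB)))) (hKA.le.trans bot_le)
    exact k1 (mem_bot.1 (hf.le ⟨hk, coprime_commGG1P (hz.trans hKV) (coprimegS hz c1)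
      (commG1'.2 (hz.trans this)) (mem_zpowers k)⟩))
  have nB := (l1 hB).trans hKV
  have iW : Ip A G {p} ⁅V, cb A B K⁆ :=
    hV.sub (commg_subl.2 nB) (normsR hV.nm (h.ip_cb hB.le hK).nm)
  have : K ≤ cb A B K ⊔ (K ⊓ 𝒞(⁅V, cb A B K⁆)) := h.GN2 hK (fun B₁ hB₁ => by
    by_cases e : B = B₁
    · exact e ▸ le_sup_left
    refine (le_inf (l1 hB₁) (h.CE2 hpq hK iW hB hB₁ e (normsR ((l1 hB₁).trans hKV)
      (cents_norm (sub_abelian_cent2 hKab (l1 hB₁) (l1 hB)))) (le_trans ?_ bot_le))).trans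
      le_sup_right
    rw [← coprime_abel_cent_TI nB (coprimegS (l1 hB) c1) hab]
    exact le_inf inf_le_left ((inf_le_inf_right _ (commg_subl.2 nB)).trans (VB hB)))
    (hKA.le.trans bot_le)
  obtain ⟨a, ha, b, hb, e⟩ := (mem_sup_norm_l
    (cents_norm (sub_abelian_cent2 hKab inf_le_left (l1 hB)))).1 (this hk)
  have n0 : cb A B K ≤ 𝒩(V ⊓ 𝒞[k]) :=
    normsI nB (norms_cent1 ((l1 hB).trans (sub_cent1.2 (abelian_cents hKab hk))))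
  have l2 : V ⊓ 𝒞[k] ≤ V ⊓ 𝒞[a] := le_inf inf_le_left ((coprime_cent_prod n0
    (coprimeSS inf_le_left (l1 hB) c1) (solvableS inf_le_left (abelian_sol hab))).ge.trans
    (sup_le (sub_cent1.2 (by
      rw [eq_mul_inv_of_mul_eq e]
      exact mul_mem (sub_cent1.1 ((commg_subl.2 n0).trans inf_le_right))
        (inv_mem (centS (commSg _ inf_le_left) hb.2)))) (inf_le_right.trans (cent_le_cent1 ha))))
  have e2 := eq_of_le_card l2 (hmax a (l1 hB ha) fun a1 => hkB (zpowers_le.2 (by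
    rw [← e, a1, one_mul]; exact hb.2)))
  have b1 : b ∈ 𝒞(V) := sub_cent1.1 ((coprime_cent_prod nB (coprimegS (l1 hB) c1)
    (abelian_sol hab)).ge.trans (sup_le (sub_cent1.2 hb.2) (sub_cent1.2 (by
      rw [eq_inv_mul_of_mul_eq e]
      exact mul_mem (inv_mem (centS inf_le_right (centsC.1 le_rfl ha))) (sub_cent1.1
        ((inf_le_inf_left _ (cent_le_cent1 ha)).trans (e2.ge.trans inf_le_right)))))))
  rw [mem_bot.1 (hf.le ⟨hb.1, b1⟩), mul_one] at e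
  exact ⟨B, hB, e ▸ ha⟩

theorem HT0 (hs : Group.IsSolvable G) (hpq : p ≠ q) (hV : Ip A G {p} V) (hE : Ip A G {q} E)
    (hX : Ip A G {p} X) (hab : IsMulCommutative V) (hEV : E ≤ 𝒩(V)) (hXV : X ≤ 𝒩(V))
    (hXE : X ≤ 𝒩(E)) (hf : E ⊓ 𝒞(V) = ⊥) : ⁅X, A⁆ ≤ 𝒞(E) := by
  refine h.GN4 hX (norms_cent hXE) (norms_cent hE.nm) le_rfl fun B' hB' _ => ?_
  by_contra hc
  have iX := h.ip_cb hB'.le hX
  have lX := h.cb_le_left hB'.le hX.nm
  obtain ⟨K, ⟨hKE, hAK, hXK, hn⟩, hm⟩ := exists_minimal_of_wellFoundedLT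
    (fun K => K ≤ E ∧ A ≤ 𝒩(K) ∧ cb A B' X ≤ 𝒩(K) ∧ ¬ cb A B' X ≤ 𝒞(K))
    ⟨E, le_rfl, hE.nm, lX.trans hXE, hc⟩
  have hmin : ∀ L, ¬ K ≤ L → L ≤ K → A ≤ 𝒩(L) → cb A B' X ≤ 𝒩(L) → cb A B' X ≤ 𝒞(L) :=
    fun L h1 h2 h3 h4 => by_contra fun h5 => h1 (hm ⟨h2.trans hKE, h3, h4, h5⟩ h2)
  have hK := hE.sub hKE hAK
  have hKV := hKE.trans hEV
  replace hf : K ⊓ 𝒞(V) = ⊥ := le_bot_iff.1 ((inf_le_inf_right _ hKE).trans hf.le)
  have c1 := pgp_coprime_of_ne hV.pg hK.pg hpq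
  have c2 := pgp_coprime_of_ne hK.pg iX.pg hpq.symm
  have l1 := fun {B} (hB : PnElem r 1 A B) => h.cb_le_left hB.le hK.nm
  have hid : K ≤ ⁅K, cb A B' X⁆ := by_contra fun e => hn (coprime_commGG1P hXK c2 (commG1'.2
    (hmin _ e (commg_subl.2 hXK) (normsR hAK iX.nm) (commg_normr _ _))))
  have K1 : K ≠ ⊥ := fun e => hn (by rw [e, cent_bot]; exact le_top)
  have d1 : ⁅K, K⁆ ≤ K ⊓ 𝒞(cb A B' X) := le_inf (der_sub K) (cents_symm
    (hmin _ (sol_der1_proper (pgp_sol hK.pg) K1).not_ge (der_sub K) (norms_der1 hAK)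
      (norms_der1 hXK)))
  have z1 : K ⊓ 𝒞(cb A B' X) ≤ 𝒞(K) := centsS hid (commG1'.1 (three_subgroup
    (by rw [commG1'.2 inf_le_right, commG1.2 bot_le])
    (commG1.2 ((commSg _ inf_le_left).trans (d1.trans inf_le_right)))))
  have zA : K ⊓ 𝒞(A) ≤ K ⊓ 𝒞(cb A B' X) := le_inf inf_le_left (h.F2 hpq.symm hK iX hXK)
  have G0 : ∀ {B}, PnElem r 1 A B → B ≠ B' → ¬ cb A B K ≤ 𝒞(cb A B' X) := fun hB e h1 =>
    hn (h.CE2 hpq.symm hX hK hB hB' e hXK ((h.cb_sup hB.le hK).trans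
      (sup_le h1 (zA.trans inf_le_right))))
  have VB : ∀ {B}, PnElem r 1 A B → V ⊓ 𝒞(B) ≤ 𝒞(cb A B K) := fun hB =>
    (h.cb_sup hB.le hV).trans (sup_le (h.F1c hB (solvableS inf_le_left hs) hpq hV hK)
      (centsS (l1 hB) (h.F2 hpq hV hK hKV)))
  have G3 : ∀ {B}, PnElem r 1 A B → cb A B K ⊓ 𝒞(cb A B' X) = ⊥ := fun {B} hB => by
    have iZ := (h.ip_cb hB.le hK).inf (norms_cent iX.nm)
    have lZ : cb A B K ⊓ 𝒞(cb A B' X) ≤ K ⊓ 𝒞(cb A B' X) := inf_le_inf_right _ (l1 hB)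
    have vZ := centsS (inf_le_left (b := 𝒞(cb A B' X))) (VB hB)
    generalize cb A B K ⊓ 𝒞(cb A B' X) = Z at iZ lZ vZ
    have lK := lZ.trans inf_le_left
    have lW : ⁅V, Z⁆ ≤ V := commg_subl.2 (lK.trans hKV)
    have iW := hV.sub lW (normsR hV.nm iZ.nm)
    have n1 := normsR hKV (cents_norm (cents_symm (lZ.trans z1)))
    have n2 := normsR (lX.trans hXV) (cents_norm (cents_symm (lZ.trans inf_le_right)))
    obtain ⟨B₃, hB₃, e1, e2⟩ := h.third hB hB'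
    have h1 : cb A B₃ K ≤ 𝒞(⁅V, Z⁆) := h.CE2 hpq hK iW hB hB₃ e1.symm ((l1 hB₃).trans n1) (by
      refine le_trans ?_ bot_le
      rw [← coprime_abel_cent_TI (lK.trans hKV) (coprimegS lK c1) hab]
      exact le_inf inf_le_left ((inf_le_inf_right _ lW).trans vZ))
    have h2 : K ≤ K ⊓ 𝒞(⁅V, Z⁆) := by_contra fun e => G0 hB₃ e2 (cents_symm (centsS
      (le_inf (l1 hB₃) h1) (hmin _ e inf_le_left (normsI hAK (norms_cent iW.nm))
        (normsI hXK (norms_cent n2)))))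
    exact le_bot_iff.1 ((le_inf lK (coprime_commGG1P (lK.trans hKV) (coprimegS lK c1)
      (commG1'.2 (lK.trans (h2.trans inf_le_right))))).trans hf.le)
  have iZ := hK.inf (norms_cent iX.nm)
  have z2 : K ⊓ 𝒞(cb A B' X) ≤ 𝒞(A) := h.GN2 iZ (fun B hB => le_trans ((le_inf (cb_mono inf_le_left)
    ((h.cb_le_left hB.le iZ.nm).trans inf_le_right)).trans (G3 hB).le) bot_le) inf_le_right
  have hKab : IsMulCommutative K := abelian_iff.2 (h.GN2 hK (fun B hB => cents_symm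
    (h.GN2 hK (fun B₁ hB₁ => by
      by_cases e : B = B₁
      · subst e
        exact commG1.1 (le_bot_iff.1 ((le_inf (der_sub _)
          ((dergS (l1 hB)).trans (d1.trans inf_le_right))).trans (G3 hB).le))
      · refine (h.cb_id' hB hB₁ e hK.toIv).trans (commG1.1 (three_subgroup ?_ ?_))
        · rw [commG1'.2 (h.cb_le_right hB.le hK.nm), commG1.2 bot_le]
        · exact commG1.2 (centsS hB.le ((commgSS (l1 hB) (l1 hB₁)).trans (d1.trans z2))))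
      (centsS (l1 hB) (zA.trans z1)))) (zA.trans z1))
  have z3 : K ⊓ 𝒞(cb A B' X) = ⊥ := by
    rw [eq_bot_iff, ← coprime_abel_cent_TI hXK c2 hKab]
    exact inf_le_inf_right _ hid
  obtain ⟨k0, hk0⟩ := exists_ne_one_of_ne_bot K1
  obtain ⟨k, ⟨hk, k1⟩, hmax⟩ := Set.exists_max_image {k | k ∈ K ∧ k ≠ 1}
    (fun a => Nat.card ↥(V ⊓ 𝒞[a])) (Set.toFinite _) ⟨k0, hk0⟩
  have key : ∀ x ∈ cb A B' X, ∃ B, PnElem r 1 A B ∧ B ≠ B' ∧ x⁻¹ * k * x ∈ 𝒞(B) := fun x hx => by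
    have x1 : x⁻¹ * k * x ≠ 1 := fun e => k1 (by
      rw [mul_assoc, inv_mul_eq_one] at e
      exact mul_eq_right.1 e.symm)
    obtain ⟨B, hB, e⟩ := h.HT1 hs hpq hV hK hab hKV hf hKab (le_bot_iff.1 (zA.trans z3.le))
      (conj_mem_of_mem_norm' (hXK hx) hk) x1 fun a ha a1 => (hmax a ⟨ha, a1⟩).trans (by
        have := cj_cent1 x⁻¹ k
        rw [inv_inv] at this
        rw [← this, ← cj_eq_of_mem_norm (inv_mem (hXV (lX hx))), ← cj_inf, card_cj,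
          cj_eq_of_mem_norm (inv_mem (hXV (lX hx)))])
    refine ⟨B, hB, fun e' => x1 (mem_bot.1 (z3.le ⟨l1 hB e, ?_⟩)), h.cb_le_right hB.le hK.nm e⟩
    exact h.F1c hB' (solvableS inf_le_left hs) hpq.symm hK hX (e' ▸ e)
  obtain ⟨B, hB, e1, e2⟩ := key 1 (one_mem _)
  rw [inv_one, one_mul, mul_one] at e2
  refine k1 (mem_bot.1 (z3.le ⟨hk, sub_cent1.1 ((h.cb_id' hB hB' e1 hX.toIv).trans
    (commutator_le.2 fun x hx b hb => ?_))⟩))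
  obtain ⟨B₁, hB₁, e3, e4⟩ := key x hx
  obtain ⟨c, hc, d, hd, e⟩ := (mem_sup_norm_l (hB'.le.trans (h.nA hB₁.le))).1
    (h.sup_eq hB₁ hB' e3 (hB.le hb))
  have hy : ⁅x, b⁆ ∈ cb A B' X := iX.commA_le hB.le (commutator_mem_commutator hx hb)
  have h1 := h.cb_le_right hB'.le hX.nm hy d⁻¹ (inv_mem hd)
  rw [← piPart_compl_mul_of_commute h1
    (mem_p_elt (abelem_pgroup h.prime h.elem) (inv_mem (hB'.le hd)))
    (mem_p_elt h.cop (iX.le hy))]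
  refine piPart_mem _ ?_
  have h2 : d⁻¹ * ⁅x, b⁆ = x * c * x⁻¹ * b⁻¹ := by
    have h3 := h.cb_le_right hB'.le hX.nm (inv_mem hx) d hd
    have h4 := abelian_cents h.elem.1 (hB'.le hd) _ (inv_mem (hB.le hb))
    rw [h1, commutatorElement_def]
    calc _ = x * c * (d * x⁻¹) * b⁻¹ * d⁻¹ := by rw [← e]; group
      _ = x * c * x⁻¹ * (d * b⁻¹) * d⁻¹ := by rw [h3]; group
      _ = _ := by rw [← h4]; group
  rw [h2]
  refine mul_mem (mem_cent1.2 ?_) (inv_mem (cent1C.1 (cent_le_cent1 hb e2)))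
  calc _ = x * (c * (x⁻¹ * k * x)) * x⁻¹ := by group
    _ = _ := by rw [e4 c hc]; group

theorem mim {Γ' : Type u} [Group Γ'] [Finite Γ'] {D : Subgroup Γ} (f : D →* Γ') (hG : G ≤ D)
    (hA : A ≤ D) (hk : mker f ≤ G) : R2 r (mim f A) (mim f G) :=
  ⟨h.toUH.mim f hG hA, (mim_PnElem f hA (coprime_TIg (h.co hk le_rfl).symm) h.rank).top⟩

theorem HT (hs : Group.IsSolvable G) (hpq : p ≠ q) (hR : Ip A G {p} R) (hE : Ip A G {q} E)
    (hX : Ip A G {p} X) (hER : E ≤ 𝒩(R)) (hXR : X ≤ 𝒩(R)) (hXE : X ≤ 𝒩(E)) :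
    ⁅⁅X, A⁆, E⁆ ≤ 𝒞(R) := by
  by_cases hR1 : R = ⊥
  · rw [hR1, cent_bot]; exact le_top
  have hp := (pgp_pdiv hR.pg hR1).1
  have key : ∀ Z ≤ E, ⁅Z, R⁆ ≤ ⁅R, R⁆ ⊔ (E ⊓ 𝒞(R)) → Z ≤ 𝒞(R) := fun Z h1 h2 => by
    refine coprime_cent_Phi hp hR.pg (coprimegS h1 (pgp_coprime_of_ne hR.pg hE.pg hpq))
      (le_trans ?_ (der1_sub_Phi hp hR.pg))
    rw [commGC]
    refine (le_inf h2 (commg_subr.2 (h1.trans hER))).trans ?_
    rw [group_modl (der_sub R) (Or.inl (cents_norm (centsC.1 (centsS (der_sub R) inf_le_right)))),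
      pgp_bot hE.pg hR.pg hpq.symm (inf_le_left.trans inf_le_left) inf_le_right, sup_bot_eq]
  have nR : R ≤ 𝒩(⁅R, R⁆ ⊔ (E ⊓ 𝒞(R))) :=
    normsY (der_norm R) (cents_norm (cents_symm inf_le_right))
  have n0 : ∀ {Y}, Y ≤ 𝒩(R) → Y ≤ 𝒩(E) → Y ≤ 𝒩(⁅R, R⁆ ⊔ (E ⊓ 𝒞(R))) := fun h1 h2 =>
    normsY (norms_der1 h1) (normsI h2 (norms_cent h1))
  have nE := n0 hER (normG E)
  have nX := n0 hXR hXE
  have nA := n0 hR.nm hE.nm
  have l1 : ⁅R, R⁆ ≤ ⁅R, R⁆ ⊔ (E ⊓ 𝒞(R)) := le_sup_left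
  have l2 : E ⊓ 𝒞(R) ≤ ⁅R, R⁆ ⊔ (E ⊓ 𝒞(R)) := le_sup_right
  have l3 : ⁅R, R⁆ ⊔ (E ⊓ 𝒞(R)) ≤ R ⊔ E ⊔ X :=
    (sup_le_sup (der_sub R) inf_le_left).trans le_sup_left
  generalize ⁅R, R⁆ ⊔ (E ⊓ 𝒞(R)) = N at *
  have i1 := (hR.toIv.sup hE.toIv).sup hX.toIv
  have h' := (h.sub i1).mim (cosHom N) (sup_le (sup_le nR nE) nX) nA (by rwa [mker_cosHom])
  have k1 : ∀ {s Y}, Ip A G {s} Y → Y ≤ R ⊔ E ⊔ X →
      Ip (A ⧸⧸ N) ((R ⊔ E ⊔ X) ⧸⧸ N) {s} (Y ⧸⧸ N) := fun h1 h2 =>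
    ⟨⟨mim_mono _ h2, mim_norm _ h1.nm⟩, mim_pigroup _ h1.pg⟩
  have h1 := h'.HT0 (mim_isSolvable _ (solvableS i1.le hs)) hpq
    (k1 hR (le_sup_left.trans le_sup_left)) (k1 hE (le_sup_right.trans le_sup_left))
    (k1 hX le_sup_right) ((quo_isMulCommutative_iff nR).2 l1) (mim_norm _ hER) (mim_norm _ hXR)
    (mim_norm _ hXE) (by
      rw [← mim_inf_mpre]
      exact quo_eq_bot_of_le ((le_inf inf_le_left (key _ inf_le_left ((quo_cent_iff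
        (inf_le_left.trans nE) nR).1 ((mim_inf_mpre _ _ _).trans_le inf_le_right)))).trans l2))
  have l4 := hX.commA_le le_rfl
  have h2 := (quo_cent_iff (l4.trans nX) nE).1 ((mim_commutator _ nX nA).trans_le h1)
  exact key _ (commg_subr.2 (l4.trans hXE)) ((commSg _ h2).trans (commg_subl.2 nR))

end R2

end CfsgLib.Mart
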