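import Cfsg.Agent.Lib.Mart.HT
import Cfsg.Agent.Lib.SolvStruct.Factor
import Cfsg.Agent.Lib.Char.Burnside

/-!
Maximal invariant `{p, q}`-subgroups.
-/

set_option autoImplicit false
set_option linter.unusedSectionVars false

namespace CfsgLib.Mart

open Cfsg Subgroup CfsgLib.BG CfsgLib.SSFT CfsgLib.SolvStruct

universe u

variable {Γ : Type u} [Group Γ] [Finite Γ]

/-- Rank two, local subgroups solvable. -/
structure M2 (r : ℕ) (A G : Subgroup Γ) : Prop extends R2 r A G where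
  solN : ∀ D, Iv A G D → D ≠ ⊥ → Group.IsSolvable D → Group.IsSolvable ↥(G ⊓ 𝒩(D))
  solC : ∀ B, PnElem r 1 A B → Group.IsSolvable ↥(G ⊓ 𝒞(B))

/-- Two primes. -/
structure PQ (r : ℕ) (A G : Subgroup Γ) (π : Set ℕ) (p q : ℕ) : Prop extends M2 r A G where
  hp : p.Prime
  hq : q.Prime
  ne : p ≠ q
  mem : ∀ s, s ∈ π ↔ s = p ∨ s = q

/-- A maximal invariant `π`-subgroup. -/
structure Mx (A G : Subgroup Γ) (π : Set ℕ) (H : Subgroup Γ) : Prop extends Ip A G π H where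
  max : ∀ K, Ip A G π K → H ≤ K → K ≤ H

/-- A maximal invariant `π`-subgroup containing the fixed points. -/
structure Mc (A G : Subgroup Γ) (π : Set ℕ) (H : Subgroup Γ) : Prop extends Mx A G π H where
  cle : ∀ X, Ip A G π X → X ≤ 𝒞(A) → X ≤ H

variable {r p q : ℕ} {A G H K L D U X Y B B₁ B₂ : Subgroup Γ} {π : Set ℕ}

theorem pi_of_perm (h : Permutes X Y) (hX : IsPiSubgroup π X) (hY : IsPiSubgroup π Y) :
    IsPiSubgroup π (X ⊔ Y) :=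
  IsPiNat.of_dvd (IsPiNat.mul hX hY) ⟨_, (CL.card_sup_mul_card_inf_of_coe_eq h.coe_sup).symm⟩

theorem exists_mx (hH : Ip A G π H) : ∃ K, Mx A G π K ∧ H ≤ K := by
  obtain ⟨K, h1, h2⟩ := Finite.exists_le_maximal (p := Ip A G π) hH
  exact ⟨K, ⟨h2.1, fun L hL e => h2.2 hL e⟩, h1⟩

namespace PQ

variable (h : PQ r A G π p q)
include h

local notation "𝐏" => syl A G p
local notation "𝐐" => syl A G q

theorem symm : PQ r A G π q p := ⟨h.toM2, h.hq, h.hp, h.ne.symm, fun s => (h.mem s).trans or_comm⟩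

theorem up (hX : Ip A G {p} X) : Ip A G π X :=
  hX.mono (Set.singleton_subset_iff.2 ((h.mem p).2 (Or.inl rfl)))

theorem iP : Ip A G {p} 𝐏 := h.ip_syl h.hp

theorem sol (hH : IsPiSubgroup π H) : Group.IsSolvable H :=
  Char.isSolvable_of_prime_dvd_card h.hp h.hq fun s hs hd => (h.mem s).1 (hH s hs hd)

theorem opp (hH : IsPiSubgroup π H) : oppOf p H = opOf q H :=
  pcore_congr_in fun s hs hd => by
    rcases (h.mem s).1 (hH s hs hd) with rfl | rfl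
    · simp [h.ne]
    · simp [h.ne.symm]

theorem gen (hH : Ip A G π H) (h1 : H ⊓ 𝐏 ≤ K) (h2 : H ⊓ 𝐐 ≤ K) : H ≤ K :=
  h.le_of_syl hH.toIv fun s hs hd => by
    rcases (h.mem s).1 (hH.pg s hs hd) with rfl | rfl
    exacts [h1, h2]

theorem perm (hH : Ip A G π H) : Permutes (H ⊓ 𝐏) (H ⊓ 𝐐) := fun b hb a ha =>
  compl_mem (compl_of_pHall (h.sylow h.hp hH.toIv) ((pHall_congr_in fun s hs hd => by
    rcases (h.mem s).1 (hH.pg s hs hd) with rfl | rfl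
    · simp [h.ne]
    · simp [h.ne.symm]).1 (h.sylow h.hq hH.toIv))) (mul_mem hb.1 ha.1)

theorem UQ (hH : Ip A G π H) (hK : Ip A G π K) (h1 : 𝐐 ≤ H) (h2 : 𝐐 ≤ K) : Ip A G π (H ⊔ K) := by
  have p1 := h.perm hH
  have p2 := h.perm hK
  rw [inf_eq_right.2 h1] at p1
  rw [inf_eq_right.2 h2] at p2
  refine (hH.toIv.sup hK.toIv).ip (pigroupS (sup_le ?_ ?_) (pi_of_perm (p1.sup_left p2)
    (pigroupS (sup_le inf_le_right inf_le_right) (h.up h.iP).pg) (h.symm.up h.symm.iP).pg))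
  · exact h.gen hH (le_sup_left.trans le_sup_left) (inf_le_right.trans le_sup_right)
  · exact h.gen hK (le_sup_right.trans le_sup_left) (inf_le_right.trans le_sup_right)

theorem HL (hL : Iv A G L) (hs : Group.IsSolvable L) :
    ∃ H, Ip A G π H ∧ H ≤ L ∧ ∀ X, Ip A G π X → X ≤ L → X ≤ H := by
  obtain ⟨H, hH, hA⟩ := coprime_Hall_exists π hL.nm (h.co hL.le le_rfl) hs
  have i1 := hL.sub (pHall_sub hH) hA
  have key : ∀ s, s.Prime → s ∈ π → L ⊓ syl A G s ≤ H := fun s hs hπ =>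
    (sub_pHall (subHall_Sylow hH hπ (h.sylow hs i1)) (pigroupS inf_le_right (h.ip_syl hs).pg)
      (inf_le_inf_right _ (pHall_sub hH)) inf_le_left).le.trans inf_le_left
  exact ⟨H, i1.ip (pHall_pgroup hH), pHall_sub hH, fun X hX e => h.le_of_syl hX.toIv
    fun s hs hd => (inf_le_inf_right _ e).trans (key s hs (hX.pg s hs hd))⟩

theorem EX (hL : Iv A G L) (hs : Group.IsSolvable L) :
    ∃ K, Mx A G π K ∧ ∀ X, Ip A G π X → X ≤ L → X ≤ K := by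
  obtain ⟨H, h1, -, h2⟩ := h.HL hL hs
  obtain ⟨K, h3, h4⟩ := exists_mx h1
  exact ⟨K, h3, fun X hX e => (h2 X hX e).trans h4⟩

theorem EXN (hD : Ip A G π D) (h1 : D ≠ ⊥) :
    ∃ K, Mx A G π K ∧ ∀ X, Ip A G π X → X ≤ 𝒩(D) → X ≤ K := by
  obtain ⟨K, h2, h3⟩ := h.EX (h.iv.inf (norms_norm hD.nm)) (h.solN D hD.toIv h1 (h.sol hD.pg))
  exact ⟨K, h2, fun X hX e => h3 X hX (le_inf hX.le e)⟩

theorem MxN (hH : Mx A G π H) (hD : Ip A G π D) (h1 : D ≠ ⊥) (hn : H ≤ 𝒩(D)) (hX : Ip A G π X)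
    (h2 : X ≤ 𝒩(D)) : X ≤ H := by
  obtain ⟨K, h3, h4⟩ := h.EXN hD h1
  exact (h4 X hX h2).trans (hH.max K h3.toIp (h4 H hH.toIp hn))

theorem char_bot (hH : Ip A G π H) (h1 : opOf q H = ⊥) (hY : IsPiSubgroup {q} Y) (h2 : Y ≤ H)
    (h3 : Y ≤ 𝒞(opOf p H)) : Y = ⊥ :=
  pgp_bot (pcore_pgroup _ _) hY h.ne ((le_inf h2 h3).trans (cent_pcore_sub_of_p'core_trivg h.hp
    (h.sol hH.pg) (by rw [h.opp hH.pg, h1]))) le_rfl

theorem cc (H : Subgroup Γ) : opOf q H ≤ 𝒞(opOf p H) :=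
  (opOf_le_oppOf h.ne.symm H).trans (oppOf_cent_opOf p H)

theorem iZ (hH : Iv A G H) : Ip A G π (centerOf (opOf p H)) := (h.up (hH.ipcore _)).center

theorem nZ (h1 : opOf p H ≠ ⊥) : centerOf (opOf p H) ≠ ⊥ :=
  center_nil_ne_bot (pgp_nil (pcore_pgroup _ _)) h1

theorem S1 (hH : Mx A G π H) (hK : Ip A G π K) (h1 : opOf p H ≠ ⊥) (h2 : centerOf (opOf p H) ≤ K)
    (hU : U ≤ K) (h3 : U ≤ opOf q H) : U ≤ opOf q K := by
  have i1 := hK.inf (norms_cent (h.iZ hH.toIv).nm)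
  have l1 := h.MxN hH (h.iZ hH.toIv) (h.nZ h1) (norms_centerOf (pcore_norm _ _)) i1
    (cents_norm inf_le_right)
  rw [← h.opp hK.pg]
  refine le_trans ?_ (p'core_cent_pgroup h.hp h2 (pigroupS (centerOf_le _) (pcore_pgroup _ _))
    (h.sol hK.pg))
  rw [h.opp i1.pg]
  exact (le_inf h3 (le_inf hU (centsS (centerOf_le _) (h3.trans (h.cc H))))).trans
    (pcoreI_le _ l1)

theorem bender (hH : Mx A G π H) (hK : Mx A G π K) (h1 : opOf p H ≠ ⊥) (h2 : opOf q H ≠ ⊥)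
    (h3 : centerOf (opOf p H) ≤ K) (h4 : centerOf (opOf q H) ≤ K) : K ≤ H := by
  have a1 := h.S1 hH hK.toIp h1 h3 h4 (centerOf_le _)
  have a2 := h.symm.S1 hH hK.toIp h2 h4 h3 (centerOf_le _)
  have k1 := subG1_contra a2 (h.nZ h1)
  have k2 := subG1_contra a1 (h.symm.nZ h2)
  have b1 := h.MxN hH (h.symm.iZ hH.toIv) (h.symm.nZ h2) (norms_centerOf (pcore_norm _ _))
    (h.up (hK.ipcore _)) (cents_norm (centsS a1 (h.symm.cc K)))
  have b2 := h.MxN hH (h.iZ hH.toIv) (h.nZ h1) (norms_centerOf (pcore_norm _ _))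
    (h.symm.up (hK.ipcore _)) (cents_norm (centsS a2 (h.cc K)))
  have c1 := h.S1 hK hH.toIp k1 ((centerOf_le _).trans b1) b2 le_rfl
  have c2 := h.symm.S1 hK hH.toIp k2 ((centerOf_le _).trans b2) b1 le_rfl
  have d1 := h.MxN hK (h.up (hK.ipcore _)) k1 (pcore_norm _ _) (h.symm.up (hH.ipcore _))
    (cents_norm (centsS c2 (h.cc H)))
  have e : opOf q K = opOf q H := le_antisymm c1 (h.S1 hH hK.toIp h1 h3 d1 le_rfl)
  exact h.MxN hH (h.symm.up (hH.ipcore {q})) h2 (pcore_norm _ _) hK.toIp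
    (by rw [show piCoreOf {q} H = _ from e.symm]; exact pcore_norm _ _)

theorem bender' (hH : Mx A G π H) (h1 : opOf p H ≠ ⊥) (h2 : opOf q H ≠ ⊥) (hD : Ip A G π D)
    (h0 : D ≠ ⊥) (h3 : centerOf (opOf p H) ≤ 𝒩(D)) (h4 : centerOf (opOf q H) ≤ 𝒩(D))
    (hX : Ip A G π X) (h5 : X ≤ 𝒩(D)) : X ≤ H := by
  obtain ⟨K, hK, h6⟩ := h.EXN hD h0
  exact (h6 X hX h5).trans (h.bender hH hK h1 h2 (h6 _ (h.iZ hH.toIv) h3)
    (h6 _ (h.symm.iZ hH.toIv) h4))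

theorem op_le (hH : Iv A G H) : opOf p H ≤ H ⊓ 𝐏 := le_inf (pcore_sub _ _) (hH.ipcore _).le_syl

theorem SC (hH : Mx A G π H) (h1 : opOf p H ≠ ⊥) (hL : L ≤ 𝒩(𝐏))
    (hc : (Nat.card 𝐏).Coprime (Nat.card L)) (h2 : L ≤ 𝒞(H ⊓ 𝐏)) : L ≤ 𝒞(𝐏) := by
  have l1 : H ⊓ 𝐏 ≤ 𝐏 ⊓ 𝒞(L) := le_inf inf_le_right (cents_symm h2)
  refine coprime_nil_faithful_cent_stab hL hc (pgp_nil h.iP.pg)
    ((inf_le_inf_left _ (centS l1)).trans (le_trans (le_inf ?_ inf_le_left) l1))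
  exact h.MxN hH (h.iZ hH.toIv) (h.nZ h1) (norms_centerOf (pcore_norm _ _))
    ((h.up h.iP).inf (norms_cent (normsI hH.nm h.iP.nm)))
    (cents_norm (centsS ((centerOf_le _).trans (h.op_le hH.toIv)) inf_le_right))

theorem LL (hH : Mx A G π H) (h1 : opOf p H ≠ ⊥) (h2 : opOf q H ≠ ⊥)
    (h3 : opOf q H ⊓ 𝒞(A) ≠ ⊥) : 𝐏 ≤ H := by
  have iE := hH.ipcore {q}
  have iL := iE.inf (h.nC le_rfl)
  have l1 := h.SC hH h1 (h.cnorm h.hp iL.le inf_le_right) (pgp_coprime_of_ne h.iP.pg iL.pg h.ne)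
    (h.F2 h.ne.symm iE (h.iP.inf' hH.nm) (inf_le_left.trans (pcore_norm _ _)))
  exact h.bender' hH h1 h2 (h.symm.up iL) h3 (cents_norm (((centerOf_le _).trans
    ((h.op_le hH.toIv).trans inf_le_right)).trans (cents_symm l1)))
    (cents_norm (centsS inf_le_left (centerOf_le_cent _))) (h.up h.iP) (cents_norm (cents_symm l1))

theorem F1 (hB : PnElem r 1 A B) (hX : Ip A G {p} X) (hY : Ip A G {q} Y) :
    cb A B X ≤ 𝒞(cb A B Y) := h.F1c hB (h.solC B hB) h.ne hX hY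

theorem MX (hH : Mc A G π H) (h1 : opOf p H ≠ ⊥) (h2 : opOf q H ≠ ⊥) (h3 : ¬ 𝐏 ≤ H) :
    ∃ B, PnElem r 1 A B ∧ 𝐏 ≤ 𝒞(B) ∧ cb A B 𝐐 = ⊥ := by
  have iE := hH.ipcore {q}
  have iR := hH.ipcore {p}
  have i1 := h.iP.inf' hH.nm
  have i2 := h.iP.inf (norms_norm i1.nm)
  have lt := nilpotent_proper_norm (pgp_nil h.iP.pg)
    (lt_of_le_of_ne inf_le_right fun e => h3 (inf_eq_right.1 e) : H ⊓ 𝐏 < 𝐏)
  obtain ⟨B, hB, hU⟩ : ∃ B, PnElem r 1 A B ∧ ¬ cb A B (𝐏 ⊓ 𝒩(H ⊓ 𝐏)) ≤ H := by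
    by_contra hc
    push Not at hc
    exact lt.not_ge (le_inf (h.GN2 i2 hc (hH.cle _ (h.up (i2.inf (h.nC le_rfl))) inf_le_right))
      inf_le_left)
  have iU := h.ip_cb hB.le i2
  have zE := centerOf_le_cent (opOf q H)
  have zR := centerOf_le (opOf p H)
  have e1 : cb A B (opOf q H) = ⊥ := by_contra fun e => hU (h.bender' hH.toMx h1 h2
    (h.symm.up (h.ip_cb hB.le iE)) e
    (cents_norm (centSS zR (h.cb_le_left hB.le iE.nm) (h.symm.cc H)))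
    (cents_norm (centsS (h.cb_le_left hB.le iE.nm) zE)) (h.up iU) (cents_norm (h.F1 hB i2 iE)))
  have e2 : opOf q H ⊓ 𝒞(B) ≤ ⊥ := (h.cb_sup hB.le iE).trans
    (sup_le e1.le (by_contra fun e => h3 (h.LL hH.toMx h1 h2 fun e' => e e'.le)))
  have n1 : H ⊓ 𝐏 ≤ 𝒩(opOf q H) := inf_le_left.trans (pcore_norm _ _)
  have l1 : ⁅H ⊓ 𝐏, B⁆ ≤ 𝒞(opOf q H) := h.GN4 i1 (norms_cent n1) (norms_cent iE.nm) hB.le
    fun B₁ hB₁ e => h.CE2 h.ne.symm i1 iE hB hB₁ e.symm ((h.cb_le_left hB₁.le i1.nm).trans n1)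
      (e2.trans bot_le)
  have e3 : ⁅H ⊓ 𝐏, B⁆ = ⊥ := by_contra fun e => hU (h.bender' hH.toMx h1 h2
    (h.up (i1.sub (i1.commA_le hB.le) (normsR i1.nm (h.nA hB.le)))) e
    ((zR.trans (h.op_le hH.toIv)).trans (commg_norml _ _))
    (cents_norm ((centerOf_le _).trans (cents_symm l1))) (h.up iU)
    (normsR ((h.cb_le_left hB.le i2.nm).trans inf_le_right)
      (cents_norm (h.cb_le_right hB.le i2.nm))))
  have l2 := cents_symm (h.SC hH.toMx h1 (hB.le.trans h.iP.nm) (h.co h.iP.le hB.le) (commG1'.1 e3))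
  have iQ := h.ip_cb hB.le h.symm.iP
  have l3 : cb A B 𝐐 ≤ H := by
    by_cases e : opOf p H ⊓ 𝒞(A) = ⊥
    · have l4 := (h.op_le hH.toIv).trans inf_le_right
      refine h.MxN hH.toMx (h.up iR) h1 (pcore_norm _ _) (h.symm.up iQ) (cents_norm (centsS ?_
        (h.symm.F1 hB h.symm.iP iR)))
      exact (le_inf le_rfl (l4.trans l2)).trans ((h.cb_sup hB.le iR).trans
        (sup_le le_rfl (e.le.trans bot_le)))
    · exact (h.cb_le_left hB.le h.symm.iP.nm).trans (h.symm.LL hH.toMx h2 h1 e)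
  refine ⟨B, hB, l2, le_bot_iff.1 (le_trans (le_inf ?_ (h.cb_le_right hB.le h.symm.iP.nm)) e2)⟩
  rw [← h.opp hH.pg]
  refine F5a h.hp (h.sol hH.pg) (h.sylow h.hp hH.toIv) l3 (pgp_p'group iQ.pg h.ne.symm)
    (inf_le_right.trans ((le_inf le_rfl l2).trans ((h.cb_sup hB.le h.iP).trans (sup_le
      (cents_norm (h.F1 hB h.iP h.symm.iP)) (norms_cb hB.le ?_ inf_le_right)))))
  exact h.cnorm h.hq (inf_le_left.trans h.iP.le) inf_le_right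

theorem CH (hno : ∀ H, Mc A G π H → opOf p H = ⊥ ∨ opOf q H = ⊥) (hK : Mc A G π K) (hQ : 𝐐 ≤ K)
    (n : ℕ) : ∀ H, Mc A G π H → opOf p H = ⊥ → Nat.card 𝐐 - Nat.card ↥(H ⊓ 𝐐) = n → H ≤ K := by
  induction n using Nat.strong_induction_on with
  | _ n ih =>
  intro H hH h1 hn
  by_cases e : 𝐐 ≤ H
  · exact le_sup_right.trans (hK.max _ (h.UQ hK.toIp hH.toIp hQ e) le_sup_left)
  have i1 := h.symm.iP.inf' hH.nm
  have lt := nilpotent_proper_norm (pgp_nil h.symm.iP.pg)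
    (lt_of_le_of_ne inf_le_right fun e' => e (inf_eq_right.1 e') : H ⊓ 𝐐 < 𝐐)
  refine TF h.prime h.hq h.elem hH.nm ((p'group_iff h.prime).1 (pigroupS hH.le h.cop))
    (h.sol hH.pg) (h.sylow h.hq hH.toIv) (by rw [h.symm.opp hH.pg, h1]; exact bot_le)
    (hK.cle _ (hH.inf (h.nC le_rfl)) inf_le_right) fun D d1 d2 d3 => ?_
  have iD := i1.sub d1 (i1.nm.trans d3)
  obtain ⟨M, hM, hm⟩ := h.EXN (h.symm.up iD) d2
  have cM : Mc A G π M := ⟨hM, fun X hX hc => hm X hX ((normsI (norm_of_le (hH.cle X hX hc))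
    (h.cnorm h.hq hX.le hc)).trans d3)⟩
  have iL := hH.inf (norms_norm iD.nm)
  have lL := hm _ iL inf_le_right
  rcases hno M cM with e1 | e1
  · refine lL.trans (ih _ ?_ M cM e1 rfl)
    have a1 := proper_card (lt.trans_le (le_inf (hm _ (h.symm.up (h.symm.iP.inf (norms_norm i1.nm)))
      (inf_le_right.trans d3)) inf_le_left))
    have a2 : Nat.card ↥(M ⊓ 𝐐) ≤ Nat.card 𝐐 := BG.card_le_of_le inf_le_right
    omega
  have iX := h.iP.inf' iL.nm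
  have iE := iL.ipcore {q}
  have lX := iX.commA_le le_rfl
  have n1 : H ⊓ 𝒩(D) ⊓ 𝐏 ≤ 𝒩(opOf q (H ⊓ 𝒩(D))) := inf_le_left.trans (pcore_norm _ _)
  have a1 := (h.toR2.sub hM.toIv).HT (h.sol hM.pg) h.ne ((hM.ipcore {p}).of_le (pcore_sub _ _))
    (iE.of_le ((pcore_sub _ _).trans lL)) (iX.of_le (inf_le_left.trans lL))
    (((pcore_sub _ _).trans lL).trans (pcore_norm _ _))
    ((inf_le_left.trans lL).trans (pcore_norm _ _)) n1
  have l1 := commg_subr.2 (lX.trans n1)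
  have a2 := h.char_bot hM.toIp e1 (pigroupS l1 iE.pg) (l1.trans ((pcore_sub _ _).trans lL)) a1
  have a3 : opOf p (H ⊓ 𝒩(D)) = ⊥ := by
    have dL : D ≤ H ⊓ 𝒩(D) := le_inf (d1.trans inf_le_left) (normG D)
    rw [eq_bot_iff, ← h1, ← h.symm.opp hH.pg]
    exact F3 h.hq (h.sol hH.pg) (d1.trans inf_le_left) iD.pg ((pcore_sub _ _).trans inf_le_left)
      (coprime_normal_cents (pcore_normal _ _) ⟨dL, inf_le_right⟩
        (pgp_coprime_of_ne (pcore_pgroup _ _) iD.pg h.ne))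
      (pgp_p'group (pcore_pgroup _ _) h.ne)
      ((inf_le_inf_left _ (cent_sub D)).trans (pcore_norm _ _))
  have a4 := h.symm.char_bot iL a3 (pigroupS lX iX.pg) (lX.trans inf_le_left) (commG1.1 a2)
  exact h.gen iL (hK.cle _ (h.up iX) (commG1.1 a4)) (inf_le_right.trans hQ)

theorem exP : ∃ K, Mc A G π K ∧ 𝐏 ≤ K := by
  have i1 := h.symm.iP.inf (h.nC le_rfl)
  obtain ⟨K, h1, h2⟩ := exists_mx ((h.iP.toIv.sup i1.toIv).ip (pigroupY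
    (Or.inr (h.cnorm h.hp i1.le inf_le_right)) (h.up h.iP).pg (h.symm.up i1).pg))
  exact ⟨K, ⟨h1, fun X hX hc => h.gen hX (inf_le_right.trans (le_sup_left.trans h2))
    ((le_inf inf_le_right (inf_le_left.trans hc)).trans (le_sup_right.trans h2))⟩,
    le_sup_left.trans h2⟩

theorem AS (hH : Ip A G π H) (hK : Ip A G π K) (h1 : opOf q H = ⊥) (h2 : opOf p K = ⊥)
    (hB₁ : PnElem r 1 A B₁) (hB₂ : PnElem r 1 A B₂) (hne : B₂ ≠ B₁)
    (l1 : 𝐐 ⊓ 𝒞(B₁) ≤ H) (l2 : 𝐏 ⊓ 𝒞(B₂) ≤ K) (hB : PnElem r 1 A B) (hne' : B₁ ≠ B)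
    (l3 : 𝐏 ⊓ 𝒞(B) ≤ K) : cb A B 𝐏 = ⊥ := by
  have iR := hH.ipcore {p}
  have iS := hK.ipcore {q}
  have a1 := (h.cb_le hB₁.le iS.nm).trans ((inf_le_inf_right _ iS.le_syl).trans l1)
  have a2 : opOf p H ⊓ 𝒞(B₂) ≤ K := (inf_le_inf_right _ iR.le_syl).trans l2
  have a3 := h.cb_le_left hB₁.le iS.nm
  have e1 := h.char_bot hH h1 (pigroupS a3 iS.pg) a1 (h.CE2 h.ne iS iR hB₂ hB₁ hne
    (a1.trans (pcore_norm _ _)) (commG1.1 (pgp_bot iR.pg iS.pg h.ne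
      ((commSg _ inf_le_left).trans (commg_subl.2 (a1.trans (pcore_norm _ _))))
      ((commgS _ a3).trans (commg_subr.2 (a2.trans (pcore_norm _ _)))))))
  have a4 := (h.cb_le hB.le h.iP.nm).trans l3
  have iX := h.ip_cb hB.le h.iP
  exact h.symm.char_bot hK h2 iX.pg a4 (h.CE2 h.ne.symm h.iP iS hB₁ hB hne'
    (a4.trans (pcore_norm _ _)) ((h.cb_sup hB₁.le iS).trans (sup_le (e1.le.trans bot_le)
      (h.F2 h.ne.symm iS iX (a4.trans (pcore_norm _ _))))))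

theorem NP0 (hB : PnElem r 1 A B) (h1 : cb A B 𝐏 ≠ ⊥) (h2 : cb A B 𝐐 ≠ ⊥) (hH : Mc A G π H)
    (h3 : opOf p H ≠ ⊥) (h4 : opOf q H ≠ ⊥) : 𝐏 ≤ H := by
  by_contra e
  obtain ⟨B₁, hB₁, a1, a2⟩ := h.MX hH h3 h4 e
  exact h1 (h.cb_eq_bot hB.le h.iP.toIv (h.cA hB hB₁ (fun e => h2 (e ▸ a2))
    (h.cb_le_right hB.le h.iP.nm) ((h.cb_le_left hB.le h.iP.nm).trans a1)))

theorem NP1 (hB : PnElem r 1 A B) (h1 : cb A B 𝐏 ≠ ⊥) (h2 : cb A B 𝐐 ≠ ⊥) :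
    IsPiSubgroup π (𝐏 ⊔ 𝐐) := by
  by_contra hc
  have hn : ∀ {H}, Mc A G π H → 𝐏 ≤ H → 𝐐 ≤ H → False := fun hH a b =>
    hc (pigroupS (sup_le a b) hH.pg)
  have hno : ∀ H, Mc A G π H → opOf p H = ⊥ ∨ opOf q H = ⊥ := fun H hH => by
    by_contra e
    push Not at e
    exact hn hH (h.NP0 hB h1 h2 hH e.1 e.2) (h.symm.NP0 hB h2 h1 hH e.2 e.1)
  obtain ⟨H, hH, hP⟩ := h.exP
  obtain ⟨K, hK, hQ⟩ := h.symm.exP
  have c1 := fun M hM e => h.CH hno hK hQ _ M hM e rfl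
  have c2 := fun M hM e => h.symm.CH (fun M hM => (hno M hM).symm) hH hP _ M hM e rfl
  have e1 := (hno H hH).resolve_left fun e => hn hK (hP.trans (c1 H hH e)) hQ
  have e2 := (hno K hK).resolve_right fun e => hn hH hP (hQ.trans (c2 K hK e))
  have key : ∀ B, PnElem r 1 A B → 𝐏 ⊓ 𝒞(B) ≤ K ∨ 𝐐 ⊓ 𝒞(B) ≤ H := fun B hB => by
    obtain ⟨M, hM, hm⟩ := h.EX (h.iv.inf (h.nC hB.le)) (h.solC B hB)
    have cM : Mc A G π M := ⟨hM, fun X hX hc => hm X hX (le_inf hX.le (centsS hB.le hc))⟩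
    exact (hno M cM).imp (fun e => (hm _ (h.up (h.iP.inf (h.nC hB.le)))
      (inf_le_inf_right _ h.iP.le)).trans (c1 M cM e)) fun e => (hm _ (h.symm.up
        (h.symm.iP.inf (h.nC hB.le))) (inf_le_inf_right _ h.symm.iP.le)).trans (c2 M cM e)
  obtain ⟨B₁, hB₁, a1⟩ : ∃ B, PnElem r 1 A B ∧ ¬ 𝐏 ⊓ 𝒞(B) ≤ K := by
    by_contra e
    push Not at e
    exact hn hK (h.GN1 h.iP.toIv e) hQ
  obtain ⟨B₂, hB₂, a2⟩ : ∃ B, PnElem r 1 A B ∧ ¬ 𝐐 ⊓ 𝒞(B) ≤ H := by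
    by_contra e
    push Not at e
    exact hn hH hP (h.GN1 h.symm.iP.toIv e)
  have b1 := (key B₁ hB₁).resolve_left a1
  have b2 := (key B₂ hB₂).resolve_right a2
  have hne : B₂ ≠ B₁ := fun e => a1 (e ▸ b2)
  rcases key B hB with e | e
  · exact h1 (h.AS hH.toIp hK.toIp e1 e2 hB₁ hB₂ hne b1 b2 hB (fun e' => a1 (e' ▸ e)) e)
  · exact h2 (h.symm.AS hK.toIp hH.toIp e2 e1 hB₂ hB₁ hne.symm b2 b1 hB
      (fun e' => a2 (e' ▸ e)) e)

theorem NP2 (hc : ¬ IsPiSubgroup π (𝐏 ⊔ 𝐐)) (hB : PnElem r 1 A B) (h1 : 𝐏 ≤ 𝒞(B))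
    (h2 : cb A B 𝐐 = ⊥) (h3 : ∀ B, PnElem r 1 A B → ¬ 𝐐 ≤ 𝒞(B)) (hY : Ip A G {q} Y)
    (h4 : IsPiSubgroup π (𝐏 ⊔ Y)) : Y ≤ 𝒞(A) := by
  have hn : ∀ {H}, Mc A G π H → 𝐏 ≤ H → 𝐐 ≤ H → False := fun hH a b =>
    hc (pigroupS (sup_le a b) hH.pg)
  have hm : ∀ {H}, Mc A G π H → opOf p H ≠ ⊥ → opOf q H ≠ ⊥ → 𝐐 ≤ H := fun hH a b => by
    by_contra e
    obtain ⟨B₁, hB₁, a1, -⟩ := h.symm.MX hH b a e
    exact h3 B₁ hB₁ a1
  obtain ⟨H, hH, hP⟩ := h.exP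
  have lY : Y ≤ H := le_sup_right.trans (le_sup_right.trans (hH.max _ (h.symm.UQ hH.toIp
    ((h.iP.toIv.sup hY.toIv).ip h4) hP le_sup_left) le_sup_left))
  have e1 : opOf q H = ⊥ := by
    by_contra e
    have e2 : opOf p H = ⊥ := by_contra fun e' => hn hH hP (hm hH e' e)
    obtain ⟨K, hK, hQ⟩ := h.symm.exP
    refine hn hK (hP.trans (h.CH (fun M hM => ?_) hK hQ _ H hH e2 rfl)) hQ
    by_contra e'
    push Not at e'
    have iR := hM.ipcore {p}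
    have iS := hH.ipcore {q}
    exact e'.1 (h.symm.char_bot hH.toIp e2 iR.pg (iR.le_syl.trans hP) (commG1.1 (pgp_bot iR.pg iS.pg
      h.ne (commg_subl.2 ((iS.le_syl.trans (hm hM e'.1 e'.2)).trans (pcore_norm _ _)))
      (commg_subr.2 ((iR.le_syl.trans hP).trans (pcore_norm _ _))))))
  have lR := (hH.ipcore {p}).le_syl.trans h1
  have l1 := hY.commA_le hB.le
  have e2 := h.char_bot hH.toIp e1 (pigroupS l1 hY.pg) (l1.trans lY) (commG1.1 (three_subgroup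
    (by rw [commG1'.2 lR, commG1.2 bot_le])
    (commG1.2 ((commg_subl.2 (lY.trans (pcore_norm _ _))).trans lR))))
  exact (le_inf hY.le_syl (commG1.1 e2)).trans ((h.cb_sup hB.le h.symm.iP).trans
    (sup_le (h2.le.trans bot_le) inf_le_right))

end PQ

end CfsgLib.Mart
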